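import Cfsg.Agent.H972.CS.F4Two

/-!
# The centralisers of the elements of prime order of `F₄(4)` (helper972)

`four_three` .. `four_seventeen` : `|C(x)| ≤ 12318179328000, 20530298880000, 1270080, 811200, 16646400` for `x` of order
`3, 5, 7, 13, 17` in `F₄(4)`.
-/

set_option autoImplicit false
set_option linter.unusedSectionVars false

namespace Cfsg.Agent.H972.CS.F4Four

open Cfsg Cfsg.Lie Cfsg.Lie.ChevalleyDatum Cfsg.Agent.H972.CS.F4Two

universe u

set_option maxRecDepth 1000000 in
theorem c3 : chk4 4 3 12318179328000 = true := by decide +kernel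
set_option maxRecDepth 1000000 in
theorem c5 : chk4 4 5 20530298880000 = true := by decide +kernel
set_option maxRecDepth 1000000 in
theorem c7 : chk4 4 7 1270080 = true := by decide +kernel
set_option maxRecDepth 1000000 in
theorem c13 : chk4 4 13 811200 = true := by decide +kernel
set_option maxRecDepth 1000000 in
theorem c17 : chk4 4 17 16646400 = true := by decide +kernel

theorem cast_ne {F : Type u} [Field F] [Fintype F] (hF : Fintype.card F = 4) {s : ℕ} (hs : s % 2 = 1) :
    (s : F) ≠ 0 := by
  have h2 : (2 : F) = 0 := by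
    have h1 := FiniteField.cast_card_eq_zero F
    rw [hF] at h1
    have h3 : (2 : F) * 2 = 0 := by
      have h4 : (2 : F) * 2 = ((4 : ℕ) : F) := by norm_num
      rw [h4]; exact h1
    rcases mul_eq_zero.1 h3 with h | h <;> exact h
  have h3 : (s : F) = 1 := by
    have h4 : s = 2 * (s / 2) + 1 := by omega
    rw [h4]
    push_cast
    rw [h2, zero_mul, zero_add]
  rw [h3]
  exact one_ne_zero

variable {F : Type u} [Field F] [Fintype F] (hF : Fintype.card F = 4) {x : ↥(chevF4.group F)}

include hF

theorem four_three (hx : orderOf x = 3) : Nat.card ↥(Subgroup.centralizer {x}) ≤ 12318179328000 :=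
  f4_cent hF Nat.prime_three (cast_ne hF rfl) c3 hx

theorem four_five (hx : orderOf x = 5) : Nat.card ↥(Subgroup.centralizer {x}) ≤ 20530298880000 :=
  f4_cent hF Nat.prime_five (cast_ne hF rfl) c5 hx

theorem four_seven (hx : orderOf x = 7) : Nat.card ↥(Subgroup.centralizer {x}) ≤ 1270080 :=
  f4_cent hF (by norm_num) (cast_ne hF rfl) c7 hx

theorem four_thirteen (hx : orderOf x = 13) : Nat.card ↥(Subgroup.centralizer {x}) ≤ 811200 :=
  f4_cent hF (by norm_num) (cast_ne hF rfl) c13 hx

theorem four_seventeen (hx : orderOf x = 17) : Nat.card ↥(Subgroup.centralizer {x}) ≤ 16646400 :=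
  f4_cent hF (by norm_num) (cast_ne hF rfl) c17 hx

end Cfsg.Agent.H972.CS.F4Four
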